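import Mathlib

/-!
Subgroups `W` of `GL₄(3)` in which the stabiliser of the last basis vector is the monomial group on the first three: the
enumeration. Vectors are coded by their digits in base three, matrices by their columns.
-/

set_option autoImplicit false
set_option maxRecDepth 100000

namespace Cfsg.Agent.S8.En

/-- The code of a vector. -/
def cd (a b c d : ℕ) : ℕ := a % 3 + 3 * (b % 3) + 9 * (c % 3) + 27 * (d % 3)

/-- Matrices. -/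
abbrev Mx := ℕ × ℕ × ℕ × ℕ

/-- A matrix applied to a vector. -/
def ap (A : Mx) (n : ℕ) : ℕ :=
  cd (n % 3 * A.1 + n / 3 % 3 * A.2.1 + n / 9 % 3 * A.2.2.1 + n / 27 % 3 * A.2.2.2)
    (n % 3 * (A.1 / 3) + n / 3 % 3 * (A.2.1 / 3) + n / 9 % 3 * (A.2.2.1 / 3) + n / 27 % 3 * (A.2.2.2 / 3))
    (n % 3 * (A.1 / 9) + n / 3 % 3 * (A.2.1 / 9) + n / 9 % 3 * (A.2.2.1 / 9) + n / 27 % 3 * (A.2.2.2 / 9))
    (n % 3 * (A.1 / 27) + n / 3 % 3 * (A.2.1 / 27) + n / 9 % 3 * (A.2.2.1 / 27) + n / 27 % 3 * (A.2.2.2 / 27))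

def mul (A B : Mx) : Mx := (ap A B.1, ap A B.2.1, ap A B.2.2.1, ap A B.2.2.2)
def ad (x y : ℕ) : ℕ := cd (x + y) (x / 3 + y / 3) (x / 9 + y / 9) (x / 27 + y / 27)
def ng (x : ℕ) : ℕ := ad x x
def nrm (x : ℕ) : ℕ := min x (ng x)
def one : Mx := (1, 3, 9, 27)
def mv : Mx := (3, 9, 1, 27)
def ma : Mx := (3, 1, 9, 27)
def md : Mx := (1, 3, 18, 27)
def o4 : Mx := (31, 58, 9, 7)
def mp : Mx := (1, 3, 9, 28)
def mm : Mx := (1, 3, 27, 9)
def b2 : Mx := (41, 43, 49, 67)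
def sh : List ℕ := [1, 2, 3, 6, 9, 18, 27, 54]
def fr (A : Mx) : List ℕ := [A.1, ng A.1, A.2.1, ng A.2.1, A.2.2.1, ng A.2.2.1]

theorem cd_lt (a b c d : ℕ) : cd a b c d < 81 := by unfold cd; omega
theorem ap_lt (A : Mx) (n : ℕ) : ap A n < 81 := cd_lt ..
theorem cd_id : ∀ x < 81, cd x (x / 3) (x / 9) (x / 27) = x := by decide +kernel

/-- The properties of the group of matrices. -/
structure Ok (W : Mx → Prop) : Prop where
  mul : ∀ A B, W A → W B → W (mul A B)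
  bd : ∀ A, W A → A.1 < 81 ∧ A.2.1 < 81 ∧ A.2.2.1 < 81 ∧ A.2.2.2 < 81
  v : W mv
  a : W ma
  d : W md
  inv : ∀ A B, W A → W B → B.2.2.2 = A.2.2.2 → ∀ x ∈ [B.1, B.2.1, B.2.2.1], x ∈ fr A
  ns : ∀ A x, W A → x < 81 → ap A x = 0 → x = 0

/-- The conclusion for a vector in the orbit of the last basis vector. -/
def Con (W : Mx → Prop) (r : ℕ) : Prop :=
  W o4 ∨ (W mp ∧ 27 ≤ r) ∨ (W mm ∧ r ∈ sh) ∨ (W mm ∧ W b2 ∧ r ≠ 13)

def lt (g : Mx) : ℕ → Mx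
  | 0 => g
  | 1 => mv
  | 2 => ma
  | _ => md

def ev (g : Mx) : List ℕ → Mx
  | [] => one
  | l :: w => mul (lt g l) (ev g w)

/-- A certificate for a matrix. -/
def good (A : Mx) (w1 w2 : List ℕ) : Prop :=
  ((ev A w2).2.2.2 = (ev A w1).2.2.2 ∧ ¬∀ x ∈ [(ev A w2).1, (ev A w2).2.1, (ev A w2).2.2.1], x ∈ fr (ev A w1)) ∨
    ev A w1 = o4 ∨ (ev A w1 = mp ∧ 27 ≤ A.2.2.2) ∨ (ev A w1 = mm ∧ A.2.2.2 ∈ sh) ∨
    (ev A w1 = mm ∧ ev A w2 = b2 ∧ A.2.2.2 ≠ 13)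

instance (A : Mx) (w1 w2 : List ℕ) : Decidable (good A w1 w2) := by unfold good; infer_instance

/-- The vectors up to sign. -/
def P : List ℕ := [0, 1, 3, 4, 5, 9, 10, 11, 12, 13, 14, 15, 16, 17, 27, 28, 29, 30, 31, 32, 33, 34, 35, 36, 37, 38, 39, 40, 41, 42, 43, 44, 45, 46, 47, 48, 49, 50, 51,
  52, 53]

def tb (T x : ℕ) : ℕ := Nat.mod (Nat.shiftRight T (Nat.mul 7 x)) 128
def iv (T x y z t : ℕ) : Bool := Nat.beq (tb T t) x || Nat.beq (tb T t) y || Nat.beq (tb T t) z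

/-- The data for one representative of the last column. -/
structure Dt where
  r : ℕ
  g1 : List ℕ
  g2 : List ℕ
  T1 : ℕ
  T2 : ℕ
  cs : List (Mx × List ℕ × List ℕ)

def chk (d : Dt) : Bool :=
  P.all fun x => P.all fun y => Nat.blt y x || P.all fun z => Nat.blt z y ||
    !(iv d.T1 x y z x && iv d.T2 x y z x && iv d.T1 x y z y && iv d.T2 x y z y && iv d.T1 x y z z && iv d.T2 x y z z) ||
    P.tail.any (fun t => Nat.beq (ap (x, y, z, d.r) t) 0) || d.cs.any fun c => c.1 == (x, y, z, d.r)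

def d0 : Dt :=
  ⟨1, [2, 1], [3],
    0x28529d8b2607d01e56b15346acd12342953245cbd69c3a6dab466b15aa46890b262c14a84e80f9e5eb96a64a90e9c363470c22407840a0c8111e3868c0a1018a162458a1204080,
    0x3164c1a3566b97ad50a53ab58a92a6487d01e448d09c3a6d62b54a54274c9523568cd93160bd72d46890a03e78e9c364480f1c3460b142468e184088f142c4840a0c2840604080,
    [((3, 9, 27, 1), [1, 1, 0], []), ((3, 9, 28, 1), [0, 0], [1, 0]), ((3, 9, 29, 1), [0, 0], [1, 0]), ((12, 15, 27, 1), [1, 2, 0, 1, 0], []), ((12, 15,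
    28, 1), [1, 0, 0, 0], [0, 0, 1, 0]), ((12, 15, 29, 1), [3, 0, 0, 0], [1, 3, 0, 0, 0])]⟩

def d1 : Dt :=
  ⟨4, [2], [3],
    0x2856954ac4c9d52462d17326abd8335a7d11c408ce9e426dab25ed18ae66c16ac52995a84aa93a44680ea23e7109e363480a1c4458c1e2488e164068a1e304840a04284020c180,
    0x3164c1a3566b97ad50a53ab58a92a6487d01e448d09c3a6d62b54a54274c9523568cd93160bd72d46890a03e78e9c364480f1c3460b142468e184088f142c4840a0c2840604080,
    [((5, 9, 27, 4), [1, 0, 0], [2, 0, 0]), ((5, 9, 31, 4), [1, 0, 0], [2, 0, 0]), ((5, 9, 35, 4), [1, 0, 0], [2, 0, 0]), ((5, 36, 45, 4), [1, 0, 0, 0, 3,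
    0], [1, 0, 3, 0, 0, 0, 0, 0]), ((5, 40, 49, 4), [0, 0, 0], [1, 0, 0, 0]), ((5, 44, 53, 4), [3, 0, 0, 0], [0, 1, 0, 0]), ((9, 28, 30, 4), [2, 0, 0,
    0], [0, 1, 0, 0]), ((9, 29, 33, 4), [2, 0, 0, 0], [1, 1, 0, 0]), ((9, 32, 34, 4), [0, 3, 1, 0, 1], []), ((14, 16, 27, 4), [1, 0, 0], [3, 1, 0,
    0]), ((14, 16, 31, 4), [0, 0, 0], [3, 0, 0, 0]), ((14, 16, 35, 4), [0, 0, 0], [3, 0, 0, 0])]⟩

def d2 : Dt :=
  ⟨13, [1], [2],
    0x2856958b45c7d11c52b13326abd0233a9d52460cd69e426dab25eb14a64680eb462b95a84a88f9c66c16aa4e9109e363480a22385840a04711164068a0a1008c1e2478c120c180,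
    0x2856954ac4c9d52462d17326abd8335a7d11c408ce9e426dab25ed18ae66c16ac52995a84aa93a44680ea23e7109e363480a1c4458c1e2488e164068a1e304840a04284020c180,
    []⟩

def d3 : Dt :=
  ⟨28, [2, 1], [3],
    0x28529d8b2607d01e56b15346acd12342953245cbd69c3a6dab466b15aa46890b262c14a84e80f9e5eb96a64a90e9c363470c22407840a0c8111e3868c0a1018a162458a1204080,
    0x3164c1a3566b97ad50a53ab58a92a6487d01e448d09c3a6d62b54a54274c9523568cd93160bd72d46890a03e78e9c364480f1c3460b142468e184088f142c4840a0c2840604080,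
    [((1, 3, 9, 28), [0], []), ((1, 12, 15, 28), [], [0, 0, 0]), ((3, 9, 27, 28), [0, 0], [2, 0, 0]), ((3, 9, 29, 28), [0, 0], [2, 0, 0]), ((12, 15, 27,
    28), [0, 0], [1, 0, 0]), ((12, 15, 29, 28), [2, 0, 0, 3, 0, 2, 0], [3, 0, 1, 0, 3, 0, 1, 0, 3])]⟩

def d4 : Dt :=
  ⟨31, [2], [3],
    0x2856954ac4c9d52462d17326abd8335a7d11c408ce9e426dab25ed18ae66c16ac52995a84aa93a44680ea23e7109e363480a1c4458c1e2488e164068a1e304840a04284020c180,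
    0x3164c1a3566b97ad50a53ab58a92a6487d01e448d09c3a6d62b54a54274c9523568cd93160bd72d46890a03e78e9c364480f1c3460b142468e184088f142c4840a0c2840604080,
    [((1, 3, 9, 31), [1, 0, 1, 0, 0, 1, 0, 0], []), ((4, 5, 9, 31), [0, 0, 1, 0], [2, 0, 1, 0]), ((4, 14, 16, 31), [1, 0], [0, 0, 0]), ((5, 9, 27, 31),
    [1, 1, 0], [0, 0, 0, 0]), ((5, 9, 35, 31), [0, 0, 0], [2, 0, 0, 0]), ((5, 13, 17, 31), [0], [1, 0, 0]), ((5, 36, 45, 31), [0, 0, 0], [2, 0, 0,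
    0]), ((5, 44, 53, 31), [2, 1, 0, 3, 0, 0, 2, 0], []), ((9, 28, 30, 31), [1, 0, 0], [2, 0, 0]), ((9, 32, 34, 31), [1, 0, 0, 0], [2, 0, 0, 0]),
    ((14, 16, 27, 31), [3, 0, 0], [1, 3, 0, 0]), ((14, 16, 35, 31), [0, 0, 0], [1, 0, 0, 0])]⟩

def d5 : Dt :=
  ⟨40, [1], [2],
    0x2856958b45c7d11c52b13326abd0233a9d52460cd69e426dab25eb14a64680eb462b95a84a88f9c66c16aa4e9109e363480a22385840a04711164068a0a1008c1e2478c120c180,
    0x2856954ac4c9d52462d17326abd8335a7d11c408ce9e426dab25ed18ae66c16ac52995a84aa93a44680ea23e7109e363480a1c4458c1e2488e164068a1e304840a04284020c180,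
    [((1, 3, 9, 40), [1, 3, 0, 3, 1, 1, 0, 0], []), ((4, 10, 12, 40), [], [0, 0]), ((14, 16, 17, 40), [0, 0, 0], [3, 0, 0]), ((28, 30, 36, 40), [0, 3, 0],
    [3, 0, 3, 0]), ((29, 33, 45, 40), [], [0, 0]), ((31, 37, 39, 40), [], [0, 0]), ((35, 47, 51, 40), [1, 3, 0, 2, 0, 3, 0, 3, 1], []), ((41, 43, 49,
    40), [3, 1, 3, 0], [1, 1, 3, 0, 0]), ((44, 50, 52, 40), [0, 3, 2, 1, 3, 0], [3, 0, 1, 3, 0, 3, 2, 1, 3, 0])]⟩

def d6 : Dt :=
  ⟨55, [2, 1], [3],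
    0x28529d8b2607d01e56b15346acd12342953245cbd69c3a6dab466b15aa46890b262c14a84e80f9e5eb96a64a90e9c363470c22407840a0c8111e3868c0a1018a162458a1204080,
    0x3164c1a3566b97ad50a53ab58a92a6487d01e448d09c3a6d62b54a54274c9523568cd93160bd72d46890a03e78e9c364480f1c3460b142468e184088f142c4840a0c2840604080,
    [((1, 3, 9, 55), [0, 1, 3, 1, 1, 0, 1, 3, 1, 1], []), ((1, 12, 15, 55), [0, 1, 1, 0], [1, 3, 0, 1, 0]), ((3, 9, 27, 55), [1, 0, 0, 0], [0, 2, 0, 0]),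
    ((3, 9, 28, 55), [1, 0, 0, 0], [0, 2, 0, 0]), ((12, 15, 27, 55), [0, 0, 0], [3, 0, 0, 0]), ((12, 15, 28, 55), [2, 0, 0, 1, 0, 0, 1], [2, 0, 0, 1,
    0, 0, 0, 0])]⟩

def d7 : Dt :=
  ⟨58, [2], [3],
    0x2856954ac4c9d52462d17326abd8335a7d11c408ce9e426dab25ed18ae66c16ac52995a84aa93a44680ea23e7109e363480a1c4458c1e2488e164068a1e304840a04284020c180,
    0x3164c1a3566b97ad50a53ab58a92a6487d01e448d09c3a6d62b54a54274c9523568cd93160bd72d46890a03e78e9c364480f1c3460b142468e184088f142c4840a0c2840604080,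
    [((1, 3, 9, 58), [0, 1, 3, 1, 1, 0, 1, 3, 1, 1], []), ((4, 5, 9, 58), [1, 1, 0, 0], [3, 0, 1, 0]), ((4, 14, 16, 58), [1, 0, 0], [2, 0, 0]), ((5, 9,
    27, 58), [0, 0, 0, 0], [1, 0, 0, 0]), ((5, 9, 31, 58), [1, 0, 0, 0], [2, 0, 0, 0]), ((5, 13, 17, 58), [1, 0, 0], [2, 0, 0]), ((5, 36, 45, 58),
    [0], [1, 0, 0]), ((5, 40, 49, 58), [1, 2, 0, 0, 0, 0, 0, 0], []), ((9, 29, 33, 58), [], [0, 0, 0, 0]), ((9, 32, 34, 58), [1, 0], [0, 0, 0]), ((14,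
    16, 27, 58), [0, 0], [1, 0, 0]), ((14, 16, 31, 58), [0, 0], [1, 0, 0])]⟩

def d8 : Dt :=
  ⟨67, [1], [2],
    0x2856958b45c7d11c52b13326abd0233a9d52460cd69e426dab25eb14a64680eb462b95a84a88f9c66c16aa4e9109e363480a22385840a04711164068a0a1008c1e2478c120c180,
    0x2856954ac4c9d52462d17326abd8335a7d11c408ce9e426dab25ed18ae66c16ac52995a84aa93a44680ea23e7109e363480a1c4458c1e2488e164068a1e304840a04284020c180,
    [((1, 3, 9, 67), [1, 0, 3, 0, 3, 1, 1], []), ((4, 10, 12, 67), [3, 0], [0, 0, 3, 0]), ((14, 16, 17, 67), [], [0, 3, 0]), ((28, 30, 36, 67), [], [0,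
    0]), ((29, 33, 45, 67), [0, 3, 0], [3, 0, 3, 0]), ((31, 37, 39, 67), [1, 3, 0, 0, 3, 0, 3, 0], []), ((35, 47, 51, 67), [], [0, 0]), ((41, 43, 49,
    67), [3, 1, 0, 3, 1, 3, 1, 0, 3, 2], [0]), ((44, 50, 52, 67), [0, 3, 0], [3, 0, 3, 0])]⟩


def D : List Dt := [d0, d1, d2, d3, d4, d5, d6, d7, d8]

/-- Words that normalise the last column. -/
def nw : List (List ℕ) := [[], [], [1, 3, 1, 1], [2], [], [1, 3, 1, 1], [1, 3, 1], [1, 3, 2, 1], [1, 3, 1, 3, 1], [1], [1], [1, 3, 1, 2], [1, 1], [], [3, 1, 1], [1, 3, 1], [3,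
  1], [3, 1, 3, 1], [1, 3], [1, 3], [1, 3, 1, 3, 2], [1, 3, 2], [3], [3, 1, 3, 2], [1, 3, 1, 3], [3, 1, 3], [3, 1, 3, 1, 3], [], [], [1, 3, 1, 1],
  [2], [], [1, 3, 1, 1], [1, 3, 1], [1, 3, 2, 1], [1, 3, 1, 3, 1], [1], [1], [1, 3, 1, 2], [1, 1], [], [3, 1, 1], [1, 3, 1], [3, 1], [3, 1, 3, 1], [1,
  3], [1, 3], [1, 3, 1, 3, 2], [1, 3, 2], [3], [3, 1, 3, 2], [1, 3, 1, 3], [3, 1, 3], [3, 1, 3, 1, 3], [], [], [1, 3, 1, 1], [2], [], [1, 3, 1, 1],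
  [1, 3, 1], [1, 3, 2, 1], [1, 3, 1, 3, 1], [1], [1], [1, 3, 1, 2], [1, 1], [], [3, 1, 1], [1, 3, 1], [3, 1], [3, 1, 3, 1], [1, 3], [1, 3], [1, 3, 1,
  3, 2], [1, 3, 2], [3], [3, 1, 3, 2], [1, 3, 1, 3], [3, 1, 3], [3, 1, 3, 1, 3]]

theorem c0 : chk d0 = true := by decide +kernel
theorem c1 : chk d1 = true := by decide +kernel
theorem c2 : chk d2 = true := by decide +kernel
theorem c3 : chk d3 = true := by decide +kernel
theorem c4 : chk d4 = true := by decide +kernel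
theorem c5 : chk d5 = true := by decide +kernel
theorem c6 : chk d6 = true := by decide +kernel
theorem c7 : chk d7 = true := by decide +kernel
theorem c8 : chk d8 = true := by decide +kernel

theorem D_chk : ∀ d ∈ D, chk d = true := by
  simp only [D, List.forall_mem_cons, List.not_mem_nil, false_imp_iff, implies_true, and_true]
  exact ⟨c0, c1, c2, c3, c4, c5, c6, c7, c8⟩

theorem D_tb : ∀ d ∈ D, ap (ev one d.g1) d.r = d.r ∧ ap (ev one d.g2) d.r = d.r ∧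
    ∀ x ∈ P, tb d.T1 x = nrm (ap (ev one d.g1) x) ∧ tb d.T2 x = nrm (ap (ev one d.g2) x) := by decide +kernel

theorem D_good : ∀ d ∈ D, ∀ c ∈ d.cs, good c.1 c.2.1 c.2.2 := by decide +kernel

theorem nw_ok : ∀ c < 81, c = 0 ∨ c = 27 ∨ c = 54 ∨ ∃ d ∈ D, ap (ev one (nw.getD c [])) c = d.r ∧ (27 ≤ d.r → 27 ≤ c) ∧
    (d.r ∈ sh → c ∈ sh) ∧ (d.r ≠ 13 → c ≠ 13) := by decide +kernel

theorem P_nrm : (∀ x < 81, nrm x ∈ P) ∧ (∀ x ∈ P, nrm x = x ∧ nrm (ng x) = x) ∧ ∀ x ∈ P.tail, x < 81 ∧ x ≠ 0 := by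
  decide +kernel

namespace Ok

variable {W : Mx → Prop} (h : Ok W)
include h

theorem w1 : W one := h.mul _ _ h.a h.a

theorem wev {g : Mx} (hg : W g) : ∀ w, W (ev g w)
  | [] => h.w1
  | l :: w => h.mul _ _ (by unfold lt; split; exacts [hg, h.v, h.a, h.d]) (wev hg w)

theorem of_good {A : Mx} (hA : W A) {w1 w2 : List ℕ} (e : good A w1 w2) : Con W A.2.2.2 := by
  have a1 := h.wev hA w1
  have a2 := h.wev hA w2
  rcases e with ⟨e1, e2⟩ | e | ⟨e1, e2⟩ | ⟨e1, e2⟩ | ⟨e1, e2, e3⟩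
  · exact absurd (h.inv _ _ a1 a2 e1) e2
  · exact .inl (e ▸ a1)
  · exact .inr (.inl ⟨e1 ▸ a1, e2⟩)
  · exact .inr (.inr (.inl ⟨e1 ▸ a1, e2⟩))
  · exact .inr (.inr (.inr ⟨e1 ▸ a1, e2 ▸ a2, e3⟩))

theorem sw {x y z r : ℕ} (hA : W (x, y, z, r)) : W (y, x, z, r) := by
  obtain ⟨h1, h2, h3, h4⟩ := h.bd _ hA
  convert h.mul _ _ hA h.a using 1
  simp [En.mul, ma, ap, cd_id x h1, cd_id y h2, cd_id z h3, cd_id r h4]

theorem rot {x y z r : ℕ} (hA : W (x, y, z, r)) : W (y, z, x, r) := by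
  obtain ⟨h1, h2, h3, h4⟩ := h.bd _ hA
  convert h.mul _ _ hA h.v using 1
  simp [En.mul, mv, ap, cd_id x h1, cd_id y h2, cd_id z h3, cd_id r h4]

theorem n3 {x y z r : ℕ} (hA : W (x, y, z, r)) : W (x, y, nrm z, r) := by
  obtain ⟨h1, h2, h3, h4⟩ := h.bd _ hA
  rcases min_choice z (ng z) with e | e
  · rw [nrm, e]; exact hA
  rw [nrm, e]
  convert h.mul _ _ hA h.d using 1
  simp [En.mul, md, ap, ng, ad, two_mul, cd_id x h1, cd_id y h2, cd_id r h4]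

theorem ivo {x y z r T : ℕ} {g : List ℕ} (hA : W (x, y, z, r)) (hx : x ∈ P) (hy : y ∈ P) (hz : z ∈ P)
    (e : ap (ev one g) r = r) (hT : ∀ t ∈ P, tb T t = nrm (ap (ev one g) t)) :
    iv T x y z x = true ∧ iv T x y z y = true ∧ iv T x y z z = true := by
  have k := h.inv _ _ hA (h.mul _ _ (h.wev h.w1 g) hA) e
  have k' : ∀ t ∈ P, ap (ev one g) t ∈ fr (x, y, z, r) → iv T x y z t = true := fun t ht e => by
    simp only [iv, Bool.or_eq_true, Nat.beq_eq, hT t ht]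
    simp only [fr, List.mem_cons, List.not_mem_nil, or_false] at e
    rcases e with e | e | e | e | e | e <;> rw [e]
    exacts [.inl (.inl (P_nrm.2.1 _ hx).1), .inl (.inl (P_nrm.2.1 _ hx).2), .inl (.inr (P_nrm.2.1 _ hy).1),
      .inl (.inr (P_nrm.2.1 _ hy).2), .inr (P_nrm.2.1 _ hz).1, .inr (P_nrm.2.1 _ hz).2]
  exact ⟨k' x hx (k _ (by simp [En.mul])), k' y hy (k _ (by simp [En.mul])), k' z hz (k _ (by simp [En.mul]))⟩

theorem srt {d : Dt} (hd : d ∈ D) {x y z : ℕ} (hA : W (x, y, z, d.r)) (hx : x ∈ P) (hy : y ∈ P) (hz : z ∈ P) (h1 : x ≤ y)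
    (h2 : y ≤ z) : Con W d.r := by
  obtain ⟨e1, e2, e3⟩ := D_tb d hd
  obtain ⟨a1, a2, a3⟩ := h.ivo hA hx hy hz e1 fun t ht => (e3 t ht).1
  obtain ⟨c1, c2, c3⟩ := h.ivo hA hx hy hz e2 fun t ht => (e3 t ht).2
  have k := D_chk d hd
  simp only [chk, List.all_eq_true, Bool.or_eq_true, Nat.blt_eq] at k
  rcases k x hx y hy with k | k
  · omega
  rcases k z hz with ((k | k) | k) | k
  · omega
  · simp [a1, a2, a3, c1, c2, c3] at k
  · obtain ⟨t, ht, e⟩ := List.any_eq_true.1 k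
    exact absurd (h.ns _ t hA (P_nrm.2.2 t ht).1 (Nat.eq_of_beq_eq_true e)) (P_nrm.2.2 t ht).2
  · obtain ⟨c, hc, e⟩ := List.any_eq_true.1 k
    have e' : c.1 = (x, y, z, d.r) := eq_of_beq e
    have := D_good d hd c hc
    rw [e'] at this
    exact h.of_good hA this

theorem rep {d : Dt} (hd : d ∈ D) {x y z : ℕ} (hA : W (x, y, z, d.r)) : Con W d.r := by
  obtain ⟨h1, h2, h3, -⟩ := h.bd _ hA
  have hB := h.n3 (h.rot (h.n3 (h.rot (h.n3 hA))))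
  have hx := P_nrm.1 _ h1
  have hy := P_nrm.1 _ h2
  have hz := P_nrm.1 _ h3
  dsimp only at hx hy hz
  generalize nrm x = a, nrm y = b, nrm z = c at *
  rcases le_total a b with e1 | e1 <;> rcases le_total b c with e2 | e2 <;> rcases le_total a c with e3 | e3
  · exact h.srt hd (h.rot hB) hx hy hz e1 e2
  · exact h.srt hd (h.rot hB) hx hy hz e1 e2
  · exact h.srt hd (h.sw hB) hx hz hy e3 e2
  · exact h.srt hd hB hz hx hy e3 e1
  · exact h.srt hd (h.sw (h.rot hB)) hy hx hz e1 e3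
  · exact h.srt hd (h.rot (h.rot hB)) hy hz hx e2 e3
  · exact h.srt hd (h.sw (h.rot (h.rot hB))) hz hy hx e2 e1
  · exact h.srt hd (h.sw (h.rot (h.rot hB))) hz hy hx e2 e1

theorem main {A : Mx} (hA : W A) : A.2.2.2 = 27 ∨ A.2.2.2 = 54 ∨ Con W A.2.2.2 := by
  rcases nw_ok _ (h.bd _ hA).2.2.2 with e | e | e | ⟨d, hd, e, e1, e2, e3⟩
  · refine absurd (h.ns A 27 hA (by omega) ?_) (by omega)
    simp [ap, cd, e]
  · exact .inl e
  · exact .inr (.inl e)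
  have hB := h.mul _ _ (h.wev h.w1 (nw.getD A.2.2.2 [])) hA
  rw [En.mul, e] at hB
  refine .inr (.inr ?_)
  rcases h.rep hd hB with k | k | k | k
  exacts [.inl k, .inr (.inl ⟨k.1, e1 k.2⟩), .inr (.inr (.inl ⟨k.1, e2 k.2⟩)), .inr (.inr (.inr ⟨k.1, k.2.1, e3 k.2.2⟩))]

theorem pm (h1 : W mp) (h2 : W mm) : False :=
  absurd (h.inv _ _ h.w1 (h.mul _ _ h2 (h.mul _ _ h1 h2)) (by decide)) (by decide)

end Ok

end Cfsg.Agent.S8.En
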