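import Mathlib
import Cfsg.Agent.Loc.MssSyl
import Cfsg.Agent.GT.PGroupBasic
import Cfsg.Agent.GT.PGroupChain

/-! Four-groups with an automorphism of order three; stabilisers of cosets. -/

set_option autoImplicit false
set_option linter.unusedSectionVars false

namespace Cfsg.Agent.S8.Flag1

open Cfsg Cfsg.Agent.GT Cfsg.Agent.Loc.Mss Subgroup
open scoped commutatorElement

variable {G : Type*} [Group G] [Finite G] {U : Subgroup G} {c p x d : G}

theorem mem_zp2 {t g : G} (h : t * t = 1) (hg : g ∈ zpowers t) : g = 1 ∨ g = t := by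
  obtain ⟨k, hk⟩ := (mem_powers_iff_mem_zpowers.2 hg)
  have hk' : t ^ k = g := hk
  rw [← hk', pow_eq_pow_mod k (show t ^ 2 = 1 by rw [pow_two, h])]
  rcases Nat.mod_two_eq_zero_or_one k with e | e <;> simp [e]

theorem mem_zp3 {g : G} (h : c ^ 3 = 1) (hg : g ∈ zpowers c) : g = 1 ∨ g = c ∨ g = c⁻¹ := by
  obtain ⟨k, hk⟩ := (mem_powers_iff_mem_zpowers.2 hg)
  have hk' : c ^ k = g := hk
  rw [← hk', pow_eq_pow_mod k h]
  have : k % 3 = 0 ∨ k % 3 = 1 ∨ k % 3 = 2 := by omega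
  rcases this with e | e | e <;> rw [e]
  · exact Or.inl (pow_zero c)
  · exact Or.inr (Or.inl (pow_one c))
  · exact Or.inr (Or.inr (eq_inv_of_mul_eq_one_left (by rw [← pow_succ, h])))

theorem cent_zp (h : x * d = d * x) : d ∈ 𝐂[zpowers x] :=
  cent_comm (zpowers_le.2 (mem_cent.2 fun _ ha => by
    obtain ⟨k, rfl⟩ := ha
    exact (Commute.zpow_left (show Commute d x from h.symm) k).eq)) (mem_zpowers d)

theorem cent_sup_zp (hd : d ∈ 𝐂[U]) (h : x * d = d * x) : d ∈ 𝐂[U ⊔ zpowers x] := by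
  rw [cent_sup]; exact ⟨hd, cent_zp h⟩

theorem mem_sup_zp {g : G} (hx : x ∈ 𝐂[U]) (hg : g ∈ U ⊔ zpowers x) :
    ∃ u ∈ U, ∃ y ∈ zpowers x, u * y = g :=
  (mem_sup_norm (zpowers_le.2 (cent_le_norm _ hx))).1 hg

theorem pow_sup {n : ℕ} (hU : ∀ u ∈ U, u ^ n = 1) (hx : x ∈ 𝐂[U]) (h : x ^ n = 1) :
    ∀ g ∈ U ⊔ zpowers x, g ^ n = 1 := fun g hg => by
  obtain ⟨u, hu, y, ⟨k, rfl⟩, rfl⟩ := mem_sup_zp hx hg
  have hc : Commute u (x ^ k) := Commute.zpow_right (mem_cent.1 hx u hu) k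
  rw [hc.mul_pow, hU u hu, one_mul, ← zpow_natCast, ← zpow_mul, mul_comm, zpow_mul, zpow_natCast, h,
    one_zpow]

theorem comm_sup (hU : U ≤ 𝐂[U]) (hx : x ∈ 𝐂[U]) : U ⊔ zpowers x ≤ 𝐂[U ⊔ zpowers x] :=
  sup_le (fun u hu => cent_sup_zp (hU hu) (mem_cent.1 hx u hu).symm)
    (zpowers_le.2 (cent_sup_zp hx rfl))

/-- `p` generates a four-group under the element `c` of order three. -/
structure Tri (c p : G) : Prop where
  o : c ^ 3 = 1
  sq : p * p = 1
  ne : p ≠ 1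
  tri : p * (c * p * c⁻¹) * (c⁻¹ * p * c) = 1

/-- The product of `U` with the four-group. -/
def ext (U : Subgroup G) (c p : G) : Subgroup G := U ⊔ zpowers p ⊔ zpowers (c * p * c⁻¹)

theorem le_ext : U ≤ ext U c p := le_sup_left.trans le_sup_left
theorem p_mem : p ∈ ext U c p := mem_sup_left (mem_sup_right (mem_zpowers p))
theorem p'_mem : c * p * c⁻¹ ∈ ext U c p := mem_sup_right (mem_zpowers _)

theorem ext_le {K : Subgroup G} (h1 : U ≤ K) (h2 : p ∈ K) (h3 : c * p * c⁻¹ ∈ K) : ext U c p ≤ K :=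
  sup_le (sup_le h1 (zpowers_le.2 h2)) (zpowers_le.2 h3)

theorem conj_comm (h1 : p * d = d * p) (h2 : c * d = d * c) :
    c * p * c⁻¹ * d = d * (c * p * c⁻¹) :=
  ((Commute.mul_left (show Commute c d from h2) h1).mul_left
    (Commute.inv_left (show Commute c d from h2))).eq

theorem cent_ext (hd : d ∈ 𝐂[U]) (h1 : p * d = d * p) (h2 : c * d = d * c) : d ∈ 𝐂[ext U c p] :=
  cent_sup_zp (cent_sup_zp hd h1) (conj_comm h1 h2)

theorem norm_ext (hd : d ∈ 𝐍[U]) (h1 : p * d = d * p) (h2 : c * d = d * c) : d ∈ 𝐍[ext U c p] :=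
  zpowers_le.1 (norm_sup (norm_sup (zpowers_le.2 hd) (zpowers_le.2 (cent_le_norm _ (cent_zp h1))))
    (zpowers_le.2 (cent_le_norm _ (cent_zp (conj_comm h1 h2)))))

namespace Tri

variable (h : Tri c p)
include h

theorem sq' : c * p * c⁻¹ * (c * p * c⁻¹) = 1 := by rw [conj_mul, h.sq, mul_one, mul_inv_cancel]

theorem sq'' : c⁻¹ * p * c * (c⁻¹ * p * c) = 1 := by
  rw [show c⁻¹ * p * c * (c⁻¹ * p * c) = c⁻¹ * (p * p) * c by group, h.sq, mul_one, inv_mul_cancel]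

theorem dd : c⁻¹ * p * c = p * (c * p * c⁻¹) :=
  (inv_eq_of_mul_eq_one_right h.sq'').symm.trans (eq_inv_of_mul_eq_one_left h.tri).symm

theorem comm : p * (c * p * c⁻¹) = c * p * c⁻¹ * p := by
  have e := inv_eq_of_mul_eq_one_right h.sq''
  rw [h.dd, mul_inv_rev, inv_eq_of_mul_eq_one_right h.sq, inv_eq_of_mul_eq_one_right h.sq'] at e
  exact e.symm

theorem cc : c * c = c⁻¹ := eq_inv_of_mul_eq_one_left (by rw [← pow_two, ← pow_succ, h.o])

theorem conj' : c * (c * p * c⁻¹) * c⁻¹ = p * (c * p * c⁻¹) := by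
  rw [← h.dd, show c * (c * p * c⁻¹) * c⁻¹ = c * c * p * (c * c)⁻¹ by group, h.cc, inv_inv]

theorem notMem : p ∉ centralizer ({c} : Set G) := fun e => by
  have e1 := mem_centralizer_singleton_iff.1 e
  have e2 := h.tri
  rw [mul_assoc c⁻¹, e1, inv_mul_cancel_left, ← e1, mul_inv_cancel_right, h.sq, one_mul] at e2
  exact h.ne e2

theorem notMem' : c * p * c⁻¹ ∉ centralizer ({c} : Set G) := fun e =>
  have hc : c ∈ centralizer ({c} : Set G) := mem_centralizer_singleton_iff.2 rfl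
  h.notMem ((mul_mem_cancel_left hc).1 ((mul_mem_cancel_right (inv_mem hc)).1 e))

theorem notMem'' : p * (c * p * c⁻¹) ∉ centralizer ({c} : Set G) := fun e =>
  have hc : c ∈ centralizer ({c} : Set G) := mem_centralizer_singleton_iff.2 rfl
  h.notMem ((mul_mem_cancel_left (inv_mem hc)).1 ((mul_mem_cancel_right hc).1 (h.dd ▸ e)))

/-- An element of `D ⟨c⟩` commuting with `p` lies in `D`. -/
theorem mem_of_comm {D : Subgroup G} (hc : c ∈ 𝐂[D]) (hp : p ∈ 𝐂[D]) {y : G}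
    (hy : y ∈ D ⊔ zpowers c) (e : p * y = y * p) : y ∈ D := by
  obtain ⟨u, hu, z, hz, rfl⟩ := mem_sup_zp hc hy
  rw [← mul_assoc, ← mem_cent.1 hp u hu, mul_assoc, mul_assoc, mul_right_inj] at e
  rcases mem_zp3 h.o hz with rfl | rfl | rfl
  · rwa [mul_one]
  · exact absurd (mem_centralizer_singleton_iff.2 e) h.notMem
  · exact absurd (mem_centralizer_singleton_iff.2
      (Commute.inv_right_iff.1 (show Commute p c⁻¹ from e)).eq) h.notMem

theorem c_notMem {D : Subgroup G} (hp : p ∈ 𝐂[D]) : c ∉ D := fun e =>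
  h.notMem (mem_centralizer_singleton_iff.2 (mem_cent.1 hp c e).symm)

variable (hc : c ∈ 𝐂[U]) (hp : p ∈ 𝐂[U])
include hc hp

theorem p'_cent : c * p * c⁻¹ ∈ 𝐂[U ⊔ zpowers p] :=
  cent_sup_zp (mul_mem (mul_mem hc hp) (inv_mem hc)) h.comm

theorem mem_ext (hx : x ∈ ext U c p) : ∃ u ∈ U, ∃ e ∈ 𝐂[U], x = u * e ∧
    (e = 1 ∨ e = p ∨ e = c * p * c⁻¹ ∨ e = p * (c * p * c⁻¹)) := by
  obtain ⟨w, hw, z, hz, rfl⟩ := mem_sup_zp (h.p'_cent hc hp) hx
  obtain ⟨u, hu, y, hy, rfl⟩ := mem_sup_zp hp hw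
  refine ⟨u, hu, y * z, mul_mem (zpowers_le.2 hp hy)
    (zpowers_le.2 (mul_mem (mul_mem hc hp) (inv_mem hc)) hz), mul_assoc _ _ _, ?_⟩
  rcases mem_zp2 h.sq hy with rfl | rfl <;> rcases mem_zp2 h.sq' hz with rfl | rfl <;> simp

theorem le_C : U ≤ centralizer ({c} : Set G) := fun u hu =>
  mem_centralizer_singleton_iff.2 (mem_cent.1 hc u hu)

theorem nm1 : p ∉ U := fun e => h.notMem (h.le_C hc hp e)

theorem nm2 : c * p * c⁻¹ ∉ U ⊔ zpowers p := fun e => by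
  obtain ⟨u, hu, y, hy, e⟩ := mem_sup_zp hp e
  rcases mem_zp2 h.sq hy with rfl | rfl
  · exact h.notMem' (by rw [← e, mul_one]; exact h.le_C hc hp hu)
  · exact h.notMem'' (by rw [h.comm, ← e, mul_assoc, h.sq, mul_one]; exact h.le_C hc hp hu)

theorem card1 : Nat.card (U ⊔ zpowers p : Subgroup G) = 2 * Nat.card U :=
  PG.card_sup_zpowers Nat.prime_two (cent_le_norm _ hp) (h.nm1 hc hp)
    (by rw [pow_two, h.sq]; exact one_mem _)

theorem card2 : Nat.card (ext U c p) = 4 * Nat.card U := by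
  rw [ext, PG.card_sup_zpowers Nat.prime_two (cent_le_norm _ (h.p'_cent hc hp)) (h.nm2 hc hp)
    (by rw [pow_two, h.sq']; exact one_mem _), h.card1 hc hp]
  ring

theorem el (hU : ∀ u ∈ U, u ^ 2 = 1) : ∀ g ∈ ext U c p, g ^ 2 = 1 :=
  pow_sup (pow_sup hU hp (by rw [pow_two, h.sq])) (h.p'_cent hc hp) (by rw [pow_two, h.sq'])

theorem ab (hU : U ≤ 𝐂[U]) : ext U c p ≤ 𝐂[ext U c p] :=
  comm_sup (comm_sup hU hp) (h.p'_cent hc hp)

theorem norm : c ∈ 𝐍[ext U c p] := mem_norm_of_cj_le (cj_le_iff.2 fun x hx => by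
  obtain ⟨u, hu, e, -, rfl, he⟩ := h.mem_ext hc hp hx
  rw [← conj_mul, ← mem_cent.1 hc u hu, mul_inv_cancel_right]
  refine mul_mem (le_ext hu) ?_
  rcases he with rfl | rfl | rfl | rfl
  · rw [mul_one, mul_inv_cancel]; exact one_mem _
  · exact p'_mem
  · rw [h.conj']; exact mul_mem p_mem p'_mem
  · rw [← conj_mul, h.conj']; exact mul_mem p'_mem (mul_mem p_mem p'_mem))

theorem fix (hx : x ∈ ext U c p) (hf : c * x * c⁻¹ * x⁻¹ ∈ centralizer ({c} : Set G)) : x ∈ U := by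
  obtain ⟨u, hu, e, -, rfl, he⟩ := h.mem_ext hc hp hx
  have hu' := h.le_C hc hp hu
  rw [← conj_mul, ← mem_cent.1 hc u hu, mul_inv_cancel_right, mul_inv_rev, ← mul_assoc,
    mul_mem_cancel_right (inv_mem hu'), mul_assoc, mul_mem_cancel_left hu'] at hf
  rcases he with rfl | rfl | rfl | rfl
  · rwa [mul_one]
  · rw [inv_eq_of_mul_eq_one_right h.sq, ← h.comm] at hf
    exact absurd hf h.notMem''
  · rw [h.conj', mul_inv_cancel_right] at hf
    exact absurd hf h.notMem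
  · rw [← conj_mul, h.conj', mul_inv_cancel_right] at hf
    exact absurd hf h.notMem'

theorem tri3 (hU : ∀ u ∈ U, u ^ 2 = 1) (hx : x ∈ ext U c p)
    (hf : x * (c * x * c⁻¹) * (c⁻¹ * x * c) = 1) :
    x = 1 ∨ x = p ∨ x = c * p * c⁻¹ ∨ x = p * (c * p * c⁻¹) := by
  obtain ⟨u, hu, e, he', rfl, he⟩ := h.mem_ext hc hp hx
  have h1 : e * (c * e * c⁻¹) * (c⁻¹ * e * c) = 1 := by
    rcases he with rfl | rfl | rfl | rfl
    · simp
    · exact h.tri
    · rw [h.conj', show c⁻¹ * (c * p * c⁻¹) * c = p by group, h.comm, ← mul_assoc, h.sq', one_mul,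
        h.sq]
    · rw [← h.dd, show c * (c⁻¹ * p * c) * c⁻¹ = p by group,
        show c⁻¹ * (c⁻¹ * p * c) * c = (c * c)⁻¹ * p * (c * c) by group, h.cc, inv_inv, mul_assoc,
        ← h.dd, h.sq'']
  have c1 : Commute u c := mem_cent.1 hc u hu
  have c2 : Commute u e := mem_cent.1 he' u hu
  have h2 : c * (u * e) * c⁻¹ = u * (c * e * c⁻¹) := by
    rw [← mul_assoc, ← c1.eq]; group
  have h3 : c⁻¹ * (u * e) * c = u * (c⁻¹ * e * c) := by
    rw [← mul_assoc, ← c1.inv_right.eq]; group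
  have c3 : Commute u (e * (c * e * c⁻¹)) := c2.mul_right ((c1.mul_right c2).mul_right c1.inv_right)
  rw [h2, h3, c2.symm.mul_mul_mul_comm, c3.symm.mul_mul_mul_comm, h1, mul_one, ← pow_two, hU u hu,
    one_mul] at hf
  rw [hf, one_mul]
  exact he

end Tri

section Step

variable {H V W : Subgroup G}

theorem mem_stab {g : G} (hx : x * x = 1) (hg : g ∈ 𝐍[U]) (h : ⁅x, g⁆ ∈ U) :
    g ∈ cmod (zpowers x) U :=
  mem_cmod.2 ⟨hg, fun v hv => by
    rcases mem_zp2 hx hv with rfl | rfl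
    · rw [commutatorElement_one_left]; exact one_mem _
    · exact h⟩

/-- The index of the stabiliser of a coset. -/
theorem step (hV : H ≤ 𝐍[V]) (hU : H ≤ 𝐍[U]) (hW : H ≤ 𝐍[W]) (h1 : U ≤ W) (h2 : W ≤ V)
    (hx : x ∈ V) (hx' : x ∉ W) (h3 : x * x = 1) (h4 : x ∈ 𝐍[U]) {n : ℕ}
    (hn : Nat.card V ≤ n * Nat.card U + Nat.card W) :
    Nat.card H ≤ n * Nat.card (H ⊓ cmod (zpowers x) U : Subgroup G) := by
  set K := (cmod (zpowers x) U).subgroupOf H with hK
  let f : (H ⧸ K) × U ⊕ W → V := Sum.elim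
    (fun a => ⟨(a.1.out : G) * x * (a.1.out : G)⁻¹ * a.2,
      mul_mem (conj_mem_of_norm (hV a.1.out.2) hx) (h2 (h1 a.2.2))⟩) fun w => ⟨w, h2 w.2⟩
  have hout : ∀ (g : H) (u : U) (w : W), (g : G) * x * (g : G)⁻¹ * u ≠ w := fun g u w e => by
    have h5 : (g : G) * x * (g : G)⁻¹ ∈ W := (mul_mem_cancel_right (h1 u.2)).1 (e ▸ w.2)
    have h6 := conj_mem_of_norm' (hW g.2) h5
    rw [show (g : G)⁻¹ * (g * x * (g : G)⁻¹) * g = x by group] at h6
    exact hx' h6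
  have hf : Function.Injective f := by
    rintro (⟨q, u⟩ | w) (⟨q', u'⟩ | w') e
    · have e1 : (q.out : G) * x * (q.out : G)⁻¹ * u = (q'.out : G) * x * (q'.out : G)⁻¹ * u' :=
        congrArg Subtype.val e
      have e2 : q = q' := by
        rw [← q.out_eq, ← q'.out_eq]
        refine QuotientGroup.eq.2 (mem_stab h3 (hU (q.out⁻¹ * q'.out).2) ?_)
        have h5 := conj_mem_of_norm h4 (conj_mem_of_norm' (hU q.out.2) (mul_mem u'.2 (inv_mem u.2)))
        have e3 : (u' : G) * (u : G)⁻¹ = ((q'.out : G) * x * (q'.out : G)⁻¹)⁻¹ *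
            ((q.out : G) * x * (q.out : G)⁻¹) := by
          rw [eq_inv_mul_iff_mul_eq, ← mul_assoc, ← e1, mul_inv_cancel_right]
        rw [e3] at h5
        convert h5 using 1
        simp only [commutatorElement_def, Subgroup.coe_subtype, Subgroup.coe_mul, Subgroup.coe_inv]
        group
      subst e2
      rw [Subtype.ext (mul_left_cancel e1)]
    · exact absurd (congrArg Subtype.val e) (hout _ _ _)
    · exact absurd (congrArg Subtype.val e).symm (hout _ _ _)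
    · rw [show w = w' from Subtype.ext (congrArg (fun v : V => (v : G)) e)]
  have h5 := (Nat.card_le_card_of_injective f hf).trans hn
  rw [Nat.card_sum, Nat.card_prod] at h5
  have h6 : K.index ≤ n := Nat.le_of_mul_le_mul_right (Nat.le_of_add_le_add_right h5) Nat.card_pos
  have h7 : Nat.card K = Nat.card (H ⊓ cmod (zpowers x) U : Subgroup G) := by
    rw [hK, ← inf_subgroupOf_left, Nat.card_congr (subgroupOfEquivOfLe inf_le_left).toEquiv]
  rw [← K.index_mul_card, h7]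
  exact Nat.mul_le_mul_right _ h6

theorem stab_norm {X : Subgroup G} (hX : X ≤ cmod (zpowers x) U) (hW : X ≤ 𝐍[W]) (h1 : U ≤ W) :
    X ≤ 𝐍[W ⊔ zpowers x] := fun g hg => mem_norm_of_cj_le (by
  rw [cj_sup, cj_of_norm (hW hg)]
  refine sup_le le_sup_left (cj_le_iff.2 fun a ha => ?_)
  rw [show g * a * g⁻¹ = ⁅a, g⁆⁻¹ * a by simp only [commutatorElement_def]; group]
  exact mul_mem (inv_mem (mem_sup_left (h1 ((mem_cmod.1 (hX hg)).2 a ha)))) (mem_sup_right ha))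

/-- The two steps for one four-group. -/
theorem Tri.steps (h : Tri c p) (hc : c ∈ 𝐂[U]) (hp : p ∈ 𝐂[U]) (hV : H ≤ 𝐍[V]) (hU : H ≤ 𝐍[U])
    (h2 : ext U c p ≤ V) {n : ℕ} (hn : Nat.card V ≤ (n + 2) * Nat.card U) :
    Nat.card H ≤ (n + 1) * n * Nat.card (H ⊓ cmod (ext U c p) U : Subgroup G) ∧
      H ⊓ cmod (ext U c p) U ≤ 𝐍[ext U c p] := by
  have s1 := step (n := n + 1) hV hU hU le_rfl (le_ext.trans h2) (h2 p_mem) (h.nm1 hc hp) h.sq
    (cent_le_norm _ hp) (by linarith)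
  set H1 := H ⊓ cmod (zpowers p) U with hH1
  have n1 : H1 ≤ 𝐍[U] := inf_le_left.trans hU
  have s2 := step (H := H1) (n := n) (inf_le_left.trans hV) n1 (stab_norm inf_le_right n1 le_rfl)
    le_sup_left (le_sup_left.trans h2) (h2 p'_mem) (h.nm2 hc hp) h.sq'
    (cent_le_norm _ (cent_anti le_sup_left (h.p'_cent hc hp))) (by rw [h.card1 hc hp]; linarith)
  have h3 : H1 ⊓ cmod (zpowers (c * p * c⁻¹)) U ≤ H ⊓ cmod (ext U c p) U := by
    refine le_inf (inf_le_left.trans inf_le_left) (le_cmod.2 ⟨inf_le_left.trans n1, ?_⟩)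
    have n2 : zpowers p ≤ 𝐍[U] := zpowers_le.2 (cent_le_norm _ hp)
    refine sup_comm_le (sup_le le_normalizer n2)
      (zpowers_le.2 (cent_le_norm _ (cent_anti le_sup_left (h.p'_cent hc hp))))
      (sup_comm_le le_normalizer n2 (comm_le_left (inf_le_left.trans n1))
        (le_cmod.1 (inf_le_left.trans inf_le_right)).2) (le_cmod.1 inf_le_right).2
  refine ⟨s1.trans ?_, norm_of_comm_le' le_ext (le_cmod.1 inf_le_right).2⟩
  rw [mul_assoc]
  exact Nat.mul_le_mul_left _ (s2.trans (Nat.mul_le_mul_left _ (card_le_of_le h3)))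

/-- An element of order three fixes all cosets of a subgroup of index at most three. -/
theorem conj_mem_of_index {M : Subgroup G} (hi : M.index ≤ 3) {y : G} (hy : y ∈ M) (h3 : y ^ 3 = 1)
    (g : G) : g⁻¹ * y * g ∈ M := by
  haveI : Fact (Nat.Prime 3) := ⟨Nat.prime_three⟩
  have hP : IsPGroup 3 (zpowers y) := pg_iff.2 fun a ha => ⟨1, by
    obtain ⟨k, rfl⟩ := ha
    rw [pow_one, ← zpow_natCast, ← zpow_mul, mul_comm, zpow_mul, zpow_natCast, h3, one_zpow]⟩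
  have h1 := hP.card_modEq_card_fixedPoints (G ⧸ M)
  have h2 : ((1 : G) : G ⧸ M) ∈ MulAction.fixedPoints (zpowers y) (G ⧸ M) := fun a =>
    QuotientGroup.eq.2 (by simpa using zpowers_le.2 hy a.2)
  have h4 : 0 < Nat.card (MulAction.fixedPoints (zpowers y) (G ⧸ M)) :=
    Nat.card_pos_iff.2 ⟨⟨⟨_, h2⟩⟩, inferInstance⟩
  have h5 : Nat.card (MulAction.fixedPoints (zpowers y) (G ⧸ M)) ≤ Nat.card (G ⧸ M) :=
    Nat.card_le_card_of_injective _ Subtype.val_injective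
  have h6 : Nat.card (G ⧸ M) ≤ 3 := hi
  have h7 : MulAction.fixedPoints (zpowers y) (G ⧸ M) = Set.univ :=
    (Set.eq_univ_iff_ncard _).2 (by
      rw [← Nat.card_coe_set_eq]
      unfold Nat.ModEq at h1
      omega)
  have h8 : (g : G ⧸ M) ∈ MulAction.fixedPoints (zpowers y) (G ⧸ M) := h7 ▸ Set.mem_univ _
  have h9 := QuotientGroup.eq.1 (h8 ⟨y, mem_zpowers y⟩).symm
  rw [mul_assoc]
  exact h9

end Step

end Cfsg.Agent.S8.Flag1
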